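import Mathlib
import Cfsg.Agent.Lib.Helper5.CS4.Defs
import Cfsg.Agent.Lib.Helper71.ClassSize
import Cfsg.Agent.Lib.Helper76.CS4.CU

/-!
# CS4 (S4146), package [GOOD] (helper97, second seat)

A good element for `m` forces `n` to be a prime power with a good element.
-/

set_option autoImplicit false

namespace Cfsg.Agent.Lib.Helper97.CS4

open Cfsg.Agent.Lib.Helper5.CS4

universe u

theorem pkgGood (hGoodS : PkgGoodS.{u}) (hIto : PkgItoSub.{u}) (hPP : PkgPP.{u})
    (hProd : PkgProd.{u}) (hFix : PkgFix.{u}) : PkgGood.{u} := by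
  intro G _ _ n m hctx hgood
  obtain ⟨hn1, hm1, hcop, hrange⟩ := hctx
  obtain ⟨b, s, j, hs, hbo, hbm, hsm⟩ := hgood
  have hsn : ¬ s ∣ n := by
    intro h
    have h' : s ∣ Nat.gcd n m := Nat.dvd_gcd h hsm
    rw [Nat.Coprime.gcd_eq_one hcop] at h'
    exact hs.ne_one (Nat.dvd_one.1 h')
  obtain ⟨H', hH'le, ⟨i, hH'idx⟩, hH'cop, hH's, hH'cls⟩ :=
    hGoodS n m ⟨hn1, hm1, hcop, hrange⟩ b s j hs hbo hbm hsm
  -- an element of class size `n` of prime power order
  have hnr : n ∈ Set.range (fun x : G => cidx x) := by rw [hrange]; simp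
  obtain ⟨x0, hx0⟩ := hnr
  have hx0' : cidx x0 = n := hx0
  have hx0Z : x0 ∉ Subgroup.center G := by
    intro h
    have h1 : cidx x0 = 1 := (Cfsg.Agent.Lib.Helper71.cidx_eq_one_iff).2 h
    rw [hx0'] at h1
    omega
  obtain ⟨i0, r, k, hr, hao, haZ⟩ := hPP x0 hx0Z
  have hle : Subgroup.centralizer ({x0} : Set G) ≤ Subgroup.centralizer ({x0 ^ i0} : Set G) := by
    intro c hc
    rw [Subgroup.mem_centralizer_singleton_iff] at hc ⊢
    exact (Commute.pow_right (show Commute c x0 from hc) i0).eq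
  have hdvd : cidx (x0 ^ i0) ∣ n := hx0' ▸ Subgroup.index_dvd_of_le hle
  have ha1 : cidx (x0 ^ i0) ≠ 1 := fun h => haZ ((Cfsg.Agent.Lib.Helper71.cidx_eq_one_iff).1 h)
  have har : cidx (x0 ^ i0) ∈ ({1, n, m, n * m} : Set ℕ) := by rw [← hrange]; exact ⟨_, rfl⟩
  have han : cidx (x0 ^ i0) = n := by
    simp only [Set.mem_insert_iff, Set.mem_singleton_iff] at har
    rcases har with h | h | h | h
    · exact absurd h ha1
    · exact h
    · exfalso
      rw [h] at hdvd
      have := Nat.Coprime.eq_one_of_dvd hcop.symm hdvd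
      omega
    · exfalso
      rw [h] at hdvd
      have h2 : m ∣ n := dvd_trans (dvd_mul_left m n) hdvd
      have := Nat.Coprime.eq_one_of_dvd hcop.symm h2
      omega
  -- conjugate into `C(b)`
  obtain ⟨g, hg⟩ := hFix b (x0 ^ i0) s j hs hbo (by rw [han]; exact hsn)
  obtain ⟨a, hadef⟩ : ∃ a : G, a = g * x0 ^ i0 * g⁻¹ := ⟨_, rfl⟩
  rw [← hadef] at hg
  have hao' : orderOf a = r ^ k := by
    rw [hadef, ← hao]
    have := (MulAut.conj g).orderOf_eq (x0 ^ i0)
    rwa [MulAut.conj_apply] at this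
  have han' : cidx a = n := by
    rw [hadef, Cfsg.Agent.Lib.Helper76.CS4.cu_cidx_conj, han]
  have hab : a * b = b * a := hg.symm
  -- `|C(b) : C(b) ∩ C(a)| = n`
  obtain ⟨-, hinf⟩ := hProd n m hcop a b han' hbm
  have hrelH : (Subgroup.centralizer ({a} : Set G)).relIndex (Subgroup.centralizer ({b} : Set G))
      = n := by
    rw [← Subgroup.inf_relIndex_right]
    have h1 := Subgroup.relIndex_mul_index
      (inf_le_right : Subgroup.centralizer ({a} : Set G) ⊓ Subgroup.centralizer ({b} : Set G) ≤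
        Subgroup.centralizer ({b} : Set G))
    have hbm' : (Subgroup.centralizer ({b} : Set G)).index = m := hbm
    rw [hinf, hbm'] at h1
    exact Nat.eq_of_mul_eq_mul_right (by omega) h1
  -- `H' ≤ C(a)` is impossible
  have hnot : ¬ H' ≤ Subgroup.centralizer ({a} : Set G) := by
    intro hle'
    have h1 : (Subgroup.centralizer ({a} : Set G)).relIndex (Subgroup.centralizer ({b} : Set G)) ∣
        H'.relIndex (Subgroup.centralizer ({b} : Set G)) :=
      Subgroup.relIndex_dvd_of_le_left _ hle'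
    rw [hrelH, hH'idx] at h1
    obtain ⟨p0, hp0, hp0n⟩ := Nat.exists_prime_and_dvd (show n ≠ 1 by omega)
    have h2 : p0 ∣ s ^ i := dvd_trans hp0n h1
    have h3 : p0 = s := (Nat.prime_dvd_prime_iff_eq hp0 hs).1 (hp0.dvd_of_dvd_pow h2)
    exact hsn (h3 ▸ hp0n)
  have hrs : r ≠ s := by
    intro hrs
    apply hnot
    intro y hy
    rw [Subgroup.mem_centralizer_singleton_iff]
    exact (hH's a hab k (by rw [hao', hrs]) y hy).symm
  have haH' : a ∈ H' := by
    apply hH'cop a hab
    rw [hao']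
    exact Nat.Coprime.pow_left k ((Nat.coprime_primes hr hs).2 hrs)
  have hrel' : (Subgroup.centralizer ({a} : Set G)).relIndex H' = n := by
    rcases hH'cls a haH' with h | h
    · exact absurd (Subgroup.relIndex_eq_one.1 h) hnot
    · exact h
  obtain ⟨hpp, hrn⟩ := hIto H' n hn1 hH'cls a haH' hrel' r k hr hao'
  exact ⟨hpp, a, r, k, hr, hao', han', hrn⟩

end Cfsg.Agent.Lib.Helper97.CS4
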